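import Cfsg.Agent.FG3Fix.QuasiPrimitive

/-!
The fixed space of an operator of prime order `p > 3` in a solvable linear group generated by its
conjugates has dimension less than half.
-/

set_option autoImplicit false
set_option linter.unusedSectionVars false
set_option linter.style.haveILetI false

namespace Cfsg.Agent.FG3Fix

open Module

/-- The statement for the representations in finite coordinates with proper kernel. -/
def SmallHyp (G : Type*) [Group G] (x : G) : Prop :=
  ∀ (r d : ℕ) [Fact r.Prime] (σ : G →* Module.End (ZMod r) (Fin d → ZMod r)),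
    Irr σ → σ x ≠ 1 → ¬ Function.Injective σ →
      2 * finrank (ZMod r) ↥(LinearMap.ker (σ x - 1)) < d

universe v w

/-- Irreducible faithful over an algebraically closed field. -/
theorem closed_irreducible {G : Type*} [Group G] [Finite G] [Group.IsSolvable G] {k : Type v}
    [Field k] [IsAlgClosed k] {V : Type w} [AddCommGroup V] [Module k V] [FiniteDimensional k V]
    [Nontrivial V] {p : ℕ} [Fact p.Prime] (hp : 5 ≤ p) (ρ : G →* Module.End k V)
    (hinj : Function.Injective ρ) (hirr : Irr ρ) {x : G} (hx : orderOf x = p)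
    (hgen : Subgroup.normalClosure {x} = ⊤) (hsmall : SmallHyp G x) :
    2 * finrank k ↥(LinearMap.ker (ρ x - 1)) < finrank k V := by
  by_cases hqp : ∀ A : Subgroup G, A.Normal → (∀ a ∈ A, ∀ b ∈ A, a * b = b * a) → A ≤ scalars ρ
  · exact quasiprimitive_bound hp ρ hinj hx hgen hqp hsmall
  · push_neg at hqp
    obtain ⟨A, hA, hAc, hns⟩ := hqp
    haveI := hA
    obtain ⟨a, haA, ha⟩ := SetLike.not_le_iff_exists.1 hns
    refine imprimitive_bound hp ρ hirr hx hgen A (fun a b => ?_)
      ⟨a, haA, fun c hc => ha ⟨c, hc⟩⟩
    show ρ a * ρ b = ρ b * ρ a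
    rw [← map_mul, ← map_mul, hAc a a.2 b b.2]

/-- Irreducible over an algebraically closed field. -/
theorem closed_quotient {G : Type*} [Group G] [Finite G] [Group.IsSolvable G] {k : Type v}
    [Field k] [IsAlgClosed k] {V : Type w} [AddCommGroup V] [Module k V] [FiniteDimensional k V]
    [Nontrivial V] {p : ℕ} [Fact p.Prime] (hp : 5 ≤ p) (ρ : G →* Module.End k V) (hirr : Irr ρ)
    {x : G} (hx : orderOf (QuotientGroup.mk' ρ.ker x) = p)
    (hgen : Subgroup.normalClosure {QuotientGroup.mk' ρ.ker x} = ⊤) (hsmall : SmallHyp G x) :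
    2 * finrank k ↥(LinearMap.ker (ρ x - 1)) < finrank k V := by
  haveI : Group.IsSolvable (G ⧸ ρ.ker) :=
    Group.isSolvable_of_surjective (QuotientGroup.mk'_surjective ρ.ker)
  let ρ' : G ⧸ ρ.ker →* Module.End k V := QuotientGroup.lift ρ.ker ρ le_rfl
  have hinj' : Function.Injective ρ' := by
    intro a b hab
    obtain ⟨a, rfl⟩ := QuotientGroup.mk'_surjective ρ.ker a
    obtain ⟨b, rfl⟩ := QuotientGroup.mk'_surjective ρ.ker b
    have hab' : ρ a = ρ b := hab
    refine QuotientGroup.eq.2 (MonoidHom.mem_ker.2 ?_)
    rw [map_mul, ← hab', ← map_mul, inv_mul_cancel, map_one]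
  have hirr' : Irr ρ' := fun W hW => hirr W fun g v hv => hW (g : G ⧸ ρ.ker) v hv
  have hsmall' : SmallHyp (G ⧸ ρ.ker) (QuotientGroup.mk' ρ.ker x) := by
    intro r d _ σ hσ hσx hσi
    refine hsmall r d (σ.comp (QuotientGroup.mk' ρ.ker)) (fun W hW => hσ W fun g v hv => ?_) hσx ?_
    · obtain ⟨g, rfl⟩ := QuotientGroup.mk'_surjective ρ.ker g
      exact hW g v hv
    · intro hi
      apply hσi
      intro a b hab
      obtain ⟨a, rfl⟩ := QuotientGroup.mk'_surjective ρ.ker a
      obtain ⟨b, rfl⟩ := QuotientGroup.mk'_surjective ρ.ker b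
      rw [hi hab]
  have h := closed_irreducible (G := G ⧸ ρ.ker) hp ρ' hinj' hirr' hx hgen hsmall'
  exact h

/-- No irreducible constituent is trivial. -/
theorem closed_bound {G : Type*} [Group G] [Finite G] [Group.IsSolvable G] {k : Type v}
    [Field k] [IsAlgClosed k] {p : ℕ} [Fact p.Prime] (hp : 5 ≤ p) {x : G} (hx : orderOf x = p)
    (hgen : Subgroup.normalClosure {x} = ⊤) (hsmall : SmallHyp G x) (N : Subgroup G) [Fintype N]
    (hN : (Fintype.card N : k) ≠ 0) :
    ∀ (n : ℕ) (V : Type w) [AddCommGroup V] [Module k V] [FiniteDimensional k V] [Nontrivial V]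
      (ρ : G →* Module.End k V), finrank k V ≤ n → (∀ v : V, ∑ a : N, ρ a v = 0) →
      2 * finrank k ↥(LinearMap.ker (ρ x - 1)) < finrank k V := by
  intro n
  induction n with
  | zero =>
    intro V _ _ _ _ ρ hn _
    exact absurd (Nat.le_zero.1 hn) Module.finrank_pos.ne'
  | succ n ih =>
    intro V _ _ _ _ ρ hn hsum
    by_cases hirr : Irr ρ
    · set K := ρ.ker with hK
      have hxK : x ∉ K := by
        intro hxK
        have htop : K = ⊤ := top_le_iff.1 (hgen ▸
          Subgroup.normalClosure_le_normal (Set.singleton_subset_iff.2 hxK))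
        obtain ⟨v, hv⟩ := exists_ne (0 : V)
        have h1 := hsum v
        have h2 : ∀ a : N, ρ a v = v := fun a => by
          have : ρ a = 1 := MonoidHom.mem_ker.1 (htop ▸ Subgroup.mem_top (a : G) : (a : G) ∈ K)
          rw [this, Module.End.one_apply]
        rw [Finset.sum_congr rfl (fun a _ => h2 a), Finset.sum_const, Finset.card_univ,
          ← Nat.cast_smul_eq_nsmul k] at h1
        exact hN ((smul_eq_zero.1 h1).resolve_right hv)
      haveI : Group.IsSolvable (G ⧸ K) :=
        Group.isSolvable_of_surjective (QuotientGroup.mk'_surjective K)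
      have e1 : x ^ p = 1 := hx ▸ pow_orderOf_eq_one x
      have hx' : orderOf (x : G ⧸ K) = p := by
        refine orderOf_eq_prime (by rw [← QuotientGroup.mk_pow, e1, QuotientGroup.mk_one]) ?_
        exact fun h => hxK ((QuotientGroup.eq_one_iff x).1 h)
      have hgen' : Subgroup.normalClosure {(x : G ⧸ K)} = ⊤ := by
        have h := Subgroup.map_normalClosure {x} (QuotientGroup.mk' K) (QuotientGroup.mk'_surjective K)
        rw [hgen, Subgroup.map_top_of_surjective _ (QuotientGroup.mk'_surjective K),
          Set.image_singleton] at h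
        exact h.symm
      exact closed_quotient hp ρ hirr hx' hgen' hsmall
    · simp only [Irr, not_forall, not_or] at hirr
      obtain ⟨W, hW, hW0, hW1⟩ := hirr
      have hlt : finrank k W < finrank k V := Submodule.finrank_lt hW1
      haveI : Nontrivial W := Submodule.nontrivial_iff_ne_bot.2 hW0
      have hWpos : 0 < finrank k W := Module.finrank_pos
      have hsumQ := W.finrank_quotient_add_finrank
      haveI : Nontrivial (V ⧸ W) := Module.nontrivial_of_finrank_pos (R := k) (by omega)
      let ρW : G →* Module.End k W :=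
        { toFun := fun g => (ρ g).restrict (fun v hv => hW g v hv)
          map_one' := LinearMap.ext fun v => Subtype.ext (by simp)
          map_mul' := fun a b => LinearMap.ext fun v => Subtype.ext (by simp) }
      let ρQ : G →* Module.End k (V ⧸ W) :=
        { toFun := fun g => W.mapQ W (ρ g) (fun v hv => hW g v hv)
          map_one' := LinearMap.ext fun q => by
            obtain ⟨v, rfl⟩ := W.mkQ_surjective q
            simp
          map_mul' := fun a b => LinearMap.ext fun q => by
            obtain ⟨v, rfl⟩ := W.mkQ_surjective q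
            simp }
      have h1 := ih W ρW (by omega) (fun v => Subtype.ext (by
        rw [AddSubmonoidClass.coe_finsetSum]
        exact hsum v))
      have h2 := ih (V ⧸ W) ρQ (by omega) (fun q => by
        obtain ⟨v, rfl⟩ := W.mkQ_surjective q
        show ∑ a : N, W.mkQ (ρ a v) = 0
        rw [← map_sum, hsum v, map_zero])
      -- the fixed space is subadditive
      let F : ↥(LinearMap.ker (ρ x - 1)) →ₗ[k] ↥(LinearMap.ker (ρQ x - 1)) :=
        (W.mkQ.comp (LinearMap.ker (ρ x - 1)).subtype).codRestrict _ (fun v => by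
          show W.mkQ (ρ x v) - W.mkQ v = 0
          rw [← map_sub, show ρ x v - v = 0 from v.2, map_zero])
      let J : ↥(LinearMap.ker F) →ₗ[k] ↥(LinearMap.ker (ρW x - 1)) :=
        { toFun := fun v => ⟨⟨((v : ↥(LinearMap.ker (ρ x - 1))) : V),
            (Submodule.Quotient.mk_eq_zero W).1 (congrArg Subtype.val v.2)⟩,
            Subtype.ext (v : ↥(LinearMap.ker (ρ x - 1))).2⟩
          map_add' := fun _ _ => rfl
          map_smul' := fun _ _ => rfl }
      have hJ : finrank k ↥(LinearMap.ker F) ≤ finrank k ↥(LinearMap.ker (ρW x - 1)) :=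
        LinearMap.finrank_le_finrank_of_injective (f := J) fun a b h =>
          Subtype.ext (Subtype.ext (congrArg (fun z : ↥(LinearMap.ker (ρW x - 1)) => ((z : ↥W) : V)) h))
      have hF := LinearMap.finrank_range_add_finrank_ker F
      have hR := Submodule.finrank_le (LinearMap.range F)
      omega

/-- Fixed points of a commutative group of unipotent operators. -/
theorem exists_fixed_of_charP {k : Type v} [Field k] {V : Type w} [AddCommGroup V] [Module k V]
    [Nontrivial V] {r : ℕ} [Fact r.Prime] [CharP k r] {A : Type*} (T : A → Module.End k V)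
    (hc : ∀ a b, Commute (T a) (T b)) (hT : ∀ a, T a ^ r = 1) (s : Finset A) :
    ∃ v : V, v ≠ 0 ∧ ∀ a ∈ s, T a v = v := by
  classical
  haveI : CharP (Module.End k V) r := charP_of_injective_algebraMap
    (FaithfulSMul.algebraMap_injective k (Module.End k V)) r
  induction s using Finset.induction_on with
  | empty =>
    obtain ⟨v, hv⟩ := exists_ne (0 : V)
    exact ⟨v, hv, by simp⟩
  | insert a s _ ih =>
    obtain ⟨v, hv, hfix⟩ := ih
    have hnil : (T a - 1) ^ r = 0 := by
      rw [sub_pow_char_of_commute (p := r) (h := (Commute.one_right (T a))), hT, one_pow, sub_self]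
    have hex : ∃ n : ℕ, ((T a - 1) ^ n : Module.End k V) v = 0 := ⟨r, by rw [hnil]; rfl⟩
    obtain ⟨m, hm⟩ : ∃ m, Nat.find hex = m + 1 := by
      refine Nat.exists_eq_succ_of_ne_zero fun h0 => hv ?_
      have := Nat.find_spec hex
      rwa [h0, pow_zero, Module.End.one_apply] at this
    refine ⟨((T a - 1) ^ m) v, Nat.find_min hex (by omega), fun b hb => ?_⟩
    rcases Finset.mem_insert.1 hb with rfl | hb
    · have h1 := Nat.find_spec hex
      rw [hm, pow_succ', Module.End.mul_apply, LinearMap.sub_apply, Module.End.one_apply] at h1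
      exact sub_eq_zero.1 h1
    · have hcom : Commute (T b) ((T a - 1) ^ m) :=
        ((hc b a).sub_right (Commute.one_right _)).pow_right m
      have h2 := LinearMap.congr_fun hcom.eq v
      rw [Module.End.mul_apply, Module.End.mul_apply, hfix b hb] at h2
      exact h2

/-- Any field. -/
theorem general_bound {G : Type*} [Group G] [Finite G] [Group.IsSolvable G] {k : Type v} [Field k]
    {V : Type w} [AddCommGroup V] [Module k V] [FiniteDimensional k V] {p : ℕ} [Fact p.Prime]
    (hp : 5 ≤ p) (ρ : G →* Module.End k V) (hinj : Function.Injective ρ) (hirr : Irr ρ) {x : G}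
    (hx : orderOf x = p) (hgen : Subgroup.normalClosure {x} = ⊤) (hsmall : SmallHyp G x) :
    2 * finrank k ↥(LinearMap.ker (ρ x - 1)) < finrank k V := by
  classical
  have hx1 : x ≠ 1 := fun h => by
    rw [h, orderOf_one] at hx; exact (Fact.out : p.Prime).one_lt.ne hx
  haveI : Nontrivial G := ⟨⟨x, 1, hx1⟩⟩
  haveI : Nontrivial V := by
    by_contra hV
    haveI := not_nontrivial_iff_subsingleton.1 hV
    exact hx1 (hinj (Subsingleton.elim _ _))
  obtain ⟨N, hNn, hN1, -, hNc, r, hr, hNr, hNp⟩ := MinNormal.exists_elementary_abelian (G := G)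
  haveI := hNn
  haveI := Fact.mk hr
  haveI : Fintype N := Fintype.ofFinite N
  -- `N` has no fixed vector
  have hnofix : ∀ v : V, (∀ a : N, ρ a v = v) → v = 0 := by
    let W : Submodule k V :=
      { carrier := {v | ∀ a : N, ρ a v = v}
        zero_mem' := fun a => map_zero _
        add_mem' := fun {u w} hu hw a => by rw [map_add, hu a, hw a]
        smul_mem' := fun c {w} hw a => by rw [map_smul, hw a] }
    rcases hirr W (fun g v hv a => by
      have h1 := hv ⟨g⁻¹ * a * g, by simpa using hNn.conj_mem _ a.2 g⁻¹⟩
      show ρ a (ρ g v) = ρ g v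
      rw [comp_cancel, show (a : G) * g = g * (g⁻¹ * a * g) by group, ← comp_cancel]
      exact congrArg (ρ g) h1) with h | h
    · intro v hv
      exact (Submodule.eq_bot_iff _).1 h v hv
    · exfalso
      refine hN1 (eq_bot_iff.2 fun a ha => Subgroup.mem_bot.2 (hinj (LinearMap.ext fun v => ?_)))
      rw [map_one, Module.End.one_apply]
      exact (h ▸ Submodule.mem_top : v ∈ W) ⟨a, ha⟩
  have hNk : (Fintype.card N : k) ≠ 0 := by
    obtain ⟨i, hi⟩ := hNp.exists_card_eq
    rw [← Nat.card_eq_fintype_card, hi, Nat.cast_pow]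
    refine pow_ne_zero _ fun h0 => ?_
    haveI : CharP k r := (CharP.charP_iff_prime_eq_zero hr).2 h0
    obtain ⟨v, hv, hfix⟩ := exists_fixed_of_charP (r := r) (fun a : N => ρ a)
      (fun a b => by
        show ρ a * ρ b = ρ b * ρ a
        rw [← map_mul, ← map_mul, show (a : G) * b = b * a from
          congrArg Subtype.val (hNc.is_comm.comm a b)])
      (fun a => by rw [← map_pow, hNr _ a.2, map_one]) Finset.univ
    exact hv (hnofix v fun a => hfix a (Finset.mem_univ a))
  have hsum : ∑ a : N, ρ a = 0 := by
    refine LinearMap.ext fun v => hnofix _ fun b => ?_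
    rw [LinearMap.sum_apply, map_sum]
    simp only [comp_cancel]
    exact Fintype.sum_equiv (Equiv.mulLeft b) _ _ (fun a => rfl)
  -- extend the scalars
  let K := AlgebraicClosure k
  set n := finrank k V with hn
  haveI : Nonempty (Fin n) := ⟨⟨0, Module.finrank_pos⟩⟩
  let b := Module.finBasis k V
  let Φ : Module.End k V →+* Matrix (Fin n) (Fin n) K :=
    ((algebraMap k K).mapMatrix).comp (LinearMap.toMatrixAlgEquiv b).toRingEquiv.toRingHom
  let ρK : G →* Module.End K (Fin n → K) :=
    (Matrix.toLinAlgEquiv' (R := K) (n := Fin n)).toMonoidHom.comp (Φ.toMonoidHom.comp ρ)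
  have hρK : ∀ g (v : V), ρK g (fun i => algebraMap k K (b.repr v i)) =
      fun i => algebraMap k K (b.repr (ρ g v) i) := by
    intro g v
    funext i
    show (Matrix.mulVec ((LinearMap.toMatrix b b (ρ g)).map (algebraMap k K))
      (fun i => algebraMap k K (b.repr v i))) i = _
    rw [← LinearMap.toMatrix_mulVec_repr b b (ρ g) v]
    exact (RingHom.map_mulVec (algebraMap k K) _ _ i).symm
  have hKsum : ∀ w : Fin n → K, ∑ a : N, ρK a w = 0 := by
    intro w
    have h1 : ∑ a : N, ρK a = 0 := by
      show ∑ a : N, (Matrix.toLinAlgEquiv' (R := K) (n := Fin n)) (Φ (ρ a)) = 0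
      rw [← map_sum, ← map_sum, hsum, map_zero, map_zero]
    rw [← LinearMap.sum_apply, h1]; rfl
  have hK := closed_bound hp hx hgen hsmall N (k := K) (by
    rw [← map_natCast (algebraMap k K)]
    exact (map_ne_zero (algebraMap k K)).2 hNk) n (Fin n → K) ρK (by simp) hKsum
  rw [Module.finrank_fin_fun] at hK
  refine lt_of_le_of_lt (Nat.mul_le_mul_left 2 ?_) hK
  -- independent fixed vectors stay independent
  set F := LinearMap.ker (ρ x - 1) with hF
  let c := Module.finBasis k F
  let img : Fin (finrank k F) → (Fin n → K) := fun j i => algebraMap k K (b.repr (c j : V) i)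
  have hmem : ∀ j, img j ∈ LinearMap.ker (ρK x - 1) := by
    intro j
    show ρK x (img j) - img j = 0
    rw [hρK, show ρ x (c j : V) = (c j : V) from sub_eq_zero.1 (c j).2, sub_self]
  have hli : LinearIndependent K img := by
    have hkV : LinearIndependent k (fun j => (b.equivFun (c j : V))) :=
      (c.linearIndependent.map' F.subtype F.ker_subtype).map' b.equivFun.toLinearMap
        b.equivFun.ker
    exact linearIndependent_algebraMap_comp hkV
  have h2 : LinearIndependent K (fun j => (⟨img j, hmem j⟩ : ↥(LinearMap.ker (ρK x - 1)))) :=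
    LinearIndependent.of_comp (LinearMap.ker (ρK x - 1)).subtype hli
  simpa using h2.fintype_card_le_finrank
where
  /-- Linear independence over an extension field. -/
  linearIndependent_algebraMap_comp {k : Type v} [Field k] {K : Type v} [Field K] [Algebra k K]
      {ι : Type} [Fintype ι] {n : ℕ} {u : ι → (Fin n → k)} (hu : LinearIndependent k u) :
      LinearIndependent K (fun j i => algebraMap k K (u j i)) := by
    classical
    let f : (ι → k) →ₗ[k] (Fin n → k) := Fintype.linearCombination k u
    obtain ⟨g, hg⟩ := f.exists_leftInverse_of_injective (LinearMap.ker_eq_bot.2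
      (linearIndependent_iff_injective_fintypeLinearCombination.1 hu))
    rw [Fintype.linearIndependent_iff]
    intro a ha j
    have hcomb : ∀ j j', g (u j) j' = if j = j' then 1 else 0 := by
      intro j j'
      have h1 : f (Pi.single j 1) = u j := by simp [f]
      rw [← h1, show g (f (Pi.single j 1)) = Pi.single j 1 from LinearMap.congr_fun hg _,
        Pi.single_apply]
      simp [eq_comm]
    have h3 : ∀ j', g (u j') j = ∑ i, u j' i * g (Pi.single i 1) j := by
      intro j'
      conv_lhs => rw [pi_eq_sum_univ' (u j')]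
      simp [map_sum, map_smul, Finset.sum_apply]
    have h4 : ∑ i, (∑ j', a j' * algebraMap k K (u j' i)) * algebraMap k K (g (Pi.single i 1) j) = 0 := by
      refine Finset.sum_eq_zero fun i _ => ?_
      have := congrFun ha i
      simp only [Finset.sum_apply, Pi.smul_apply, smul_eq_mul, Pi.zero_apply] at this
      rw [this, zero_mul]
    simp only [Finset.sum_mul, mul_assoc, ← map_mul] at h4
    rw [Finset.sum_comm] at h4
    simp only [← Finset.mul_sum, ← map_sum, ← h3, hcomb] at h4
    simpa using h4

/-- Coordinates over a prime field. -/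
theorem small_aux {p : ℕ} [Fact p.Prime] (hp : 5 ≤ p) :
    ∀ (n : ℕ) (G : Type) [Group G] [Finite G] [Group.IsSolvable G] (x : G),
      Nat.card G ≤ n → orderOf x = p → Subgroup.normalClosure {x} = ⊤ →
      ∀ (r d : ℕ) [Fact r.Prime] (σ : G →* Module.End (ZMod r) (Fin d → ZMod r)),
        Function.Injective σ → Irr σ →
        2 * finrank (ZMod r) ↥(LinearMap.ker (σ x - 1)) < d := by
  intro n
  induction n using Nat.strong_induction_on with
  | _ n ih =>
  intro G _ _ _ x hn hx hgen r d _ σ hinj hirr
  have hsmall : SmallHyp G x := by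
    intro r' d' _ τ hτ hτx hτi
    have hQ : ∀ q : τ.toHomUnits.range, ∃ g, τ.toHomUnits.rangeRestrict g = q :=
      MonoidHom.rangeRestrict_surjective _
    haveI : Finite τ.toHomUnits.range :=
      Finite.of_surjective _ (MonoidHom.rangeRestrict_surjective _)
    haveI : Group.IsSolvable τ.toHomUnits.range :=
      Group.isSolvable_of_surjective (MonoidHom.rangeRestrict_surjective _)
    set f := τ.toHomUnits.rangeRestrict with hf
    have hfs : Function.Surjective f := MonoidHom.rangeRestrict_surjective _
    have hlt : Nat.card τ.toHomUnits.range < n := by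
      refine lt_of_lt_of_le (lt_of_le_of_ne (Nat.card_le_card_of_surjective f hfs) fun he => hτi ?_) hn
      intro a b hab
      refine (hfs.bijective_of_nat_card_le he.ge).1 (Subtype.ext (Units.ext ?_))
      exact hab
    have hfx : orderOf (f x) = p := by
      refine orderOf_eq_prime (by rw [← map_pow, ← hx, pow_orderOf_eq_one, map_one]) fun h1 => hτx ?_
      exact congrArg (fun z : τ.toHomUnits.range => ((z : (Module.End (ZMod r') (Fin d' → ZMod r'))ˣ) :
        Module.End (ZMod r') (Fin d' → ZMod r'))) h1
    have hfgen : Subgroup.normalClosure {f x} = ⊤ := by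
      have h := Subgroup.map_normalClosure {x} f hfs
      rw [hgen, Subgroup.map_top_of_surjective _ hfs, Set.image_singleton] at h
      exact h.symm
    exact ih _ hlt τ.toHomUnits.range (f x) le_rfl hfx hfgen r' d'
      ((Units.coeHom _).comp τ.toHomUnits.range.subtype)
      (fun a b hab => Subtype.ext (Units.ext hab))
      (fun W hW => hτ W fun g v hv => hW (f g) v hv)
  have h := general_bound hp σ hinj hirr hx hgen hsmall
  rwa [Module.finrank_fin_fun] at h

/-- **The fixed space has less than half the dimension.** -/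
theorem fixed_space_bound {G : Type*} [Group G] [Finite G] [Group.IsSolvable G] {k : Type v}
    [Field k] {V : Type w} [AddCommGroup V] [Module k V] [FiniteDimensional k V] {p : ℕ}
    [Fact p.Prime] (hp : 5 ≤ p) (ρ : G →* Module.End k V) (hinj : Function.Injective ρ)
    (hirr : Irr ρ) {x : G} (hx : orderOf x = p) (hgen : Subgroup.normalClosure {x} = ⊤) :
    2 * finrank k ↥(LinearMap.ker (ρ x - 1)) < finrank k V := by
  refine general_bound hp ρ hinj hirr hx hgen ?_
  intro r d _ τ hτ hτx _
  set f := τ.toHomUnits.rangeRestrict with hf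
  have hfs : Function.Surjective f := MonoidHom.rangeRestrict_surjective _
  haveI : Finite τ.toHomUnits.range := Finite.of_surjective _ hfs
  haveI : Group.IsSolvable τ.toHomUnits.range := Group.isSolvable_of_surjective hfs
  have hfx : orderOf (f x) = p := by
    refine orderOf_eq_prime (by rw [← map_pow, ← hx, pow_orderOf_eq_one, map_one]) fun h1 => hτx ?_
    exact congrArg (fun z : τ.toHomUnits.range => ((z : (Module.End (ZMod r) (Fin d → ZMod r))ˣ) :
      Module.End (ZMod r) (Fin d → ZMod r))) h1
  have hfgen : Subgroup.normalClosure {f x} = ⊤ := by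
    have h := Subgroup.map_normalClosure {x} f hfs
    rw [hgen, Subgroup.map_top_of_surjective _ hfs, Set.image_singleton] at h
    exact h.symm
  exact small_aux hp _ τ.toHomUnits.range (f x) le_rfl hfx hfgen r d
    ((Units.coeHom _).comp τ.toHomUnits.range.subtype)
    (fun a b hab => Subtype.ext (Units.ext hab))
    (fun W hW => hτ W fun g v hv => hW (f g) v hv)

end Cfsg.Agent.FG3Fix
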